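import Mathlib
import Cfsg.Agent.Lib.Helper22.Iso.Defs
import Cfsg.Agent.Lib.Helper22.Comp
import Cfsg.Agent.Lib.Helper22.Layer
import Cfsg.Agent.Lib.Helper9.HallSystem

/-!
# ISO (S3044 + S3045): (17) `PkgAbsA2` - `p ∣ |X|` when `E(X) = X`
-/

set_option autoImplicit false

namespace Cfsg.Agent.Lib.Helper11.Iso

open Cfsg.Agent.Lib.Helper22.Iso

universe u

section

variable {X Γ : Type u} [Group X] [Group Γ]

/-- The subgroup of fixed points of `Qg`. -/
def fixQ (σ : Γ →* MulAut X) (Qg : Subgroup Γ) : Subgroup X where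
  carrier := {x | ∀ q ∈ Qg, σ q x = x}
  mul_mem' := fun {a b} ha hb q hq => by rw [map_mul, ha q hq, hb q hq]
  one_mem' := fun q _ => map_one _
  inv_mem' := fun {a} ha q hq => by rw [map_inv, ha q hq]

theorem mem_fixQ (σ : Γ →* MulAut X) (Qg : Subgroup Γ) (x : X) :
    x ∈ fixQ σ Qg ↔ ∀ q ∈ Qg, σ q x = x := Iff.rfl

open scoped Pointwise in
/-- A `p`-group of automorphisms of a `p'`-group leaves some Sylow `r`-subgroup invariant. -/
theorem exists_inv_sylow [Finite X] {p : ℕ} [Fact p.Prime] (σ : Γ →* MulAut X) (Sg : Subgroup Γ)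
    (hS : IsPGroup p Sg) (hp : ¬ p ∣ Nat.card X) (r : ℕ) [Fact r.Prime] :
    ∃ W : Sylow r X, ∀ s ∈ Sg, ∀ x ∈ (W : Subgroup X), σ s x ∈ (W : Subgroup X) := by
  classical
  letI : MulAction ↥Sg (Sylow r X) := MulAction.compHom (Sylow r X) (σ.comp Sg.subtype)
  have h1 := hS.card_modEq_card_fixedPoints (Sylow r X)
  have h2 : ¬ p ∣ Nat.card (Sylow r X) := by
    intro h
    apply hp
    obtain ⟨P⟩ : Nonempty (Sylow r X) := inferInstance
    exact dvd_trans h (dvd_trans (Sylow.card_dvd_index P) (Subgroup.index_dvd_card _))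
  have h3 : Nat.card (MulAction.fixedPoints ↥Sg (Sylow r X)) ≠ 0 := by
    intro h0
    rw [h0] at h1
    exact h2 ((Nat.modEq_zero_iff_dvd).mp h1)
  obtain ⟨⟨W, hW⟩⟩ : Nonempty (MulAction.fixedPoints ↥Sg (Sylow r X)) := by
    by_contra hne
    rw [not_nonempty_iff] at hne
    exact h3 Nat.card_of_isEmpty
  refine ⟨W, fun s hs x hx => ?_⟩
  have h4 : (⟨s, hs⟩ : ↥Sg) • W = W := hW ⟨s, hs⟩
  have h5 : (σ s) • (W : Subgroup X) = (W : Subgroup X) := congrArg Sylow.toSubgroup h4
  rw [← h5]
  exact Subgroup.smul_mem_pointwise_smul x (σ s) _ hx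

end

/-- ABS-A2: `p ∣ |X|` when `E(X) = X`. -/
theorem pkgAbsA2 : PkgAbsA2.{u} := by
  intro X Γ _ _ _ _ p _ σ Sg Qg Lg Lb Tb hA hlay
  classical
  by_contra hp
  apply hA.nc
  obtain ⟨C, hC⟩ : ∃ C : Subgroup X, C = fixQ σ Qg := ⟨_, rfl⟩
  have hCmem : ∀ x, x ∈ C ↔ ∀ q ∈ Qg, σ q x = x := by
    intro x
    rw [hC]
    rfl
  have hinv : ∀ W : Subgroup X, (∀ s ∈ Sg, ∀ x ∈ W, σ s x ∈ W) → Tb ≤ W ∨ W ≤ C := by
    intro W hWi
    rcases hA.invp hp W hWi with h | h
    · exact Or.inl h
    · right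
      intro x hx
      rw [hCmem]
      exact fun q hq => h q hq x hx
  -- the commutators `[x, q]` are central
  have hcent : ∀ q ∈ Qg, ∀ x : X, x * (σ q x)⁻¹ ∈ Subgroup.center X := by
    by_cases hall : ∀ r : ℕ, r.Prime → ∀ W : Sylow r X,
        (∀ s ∈ Sg, ∀ x ∈ (W : Subgroup X), σ s x ∈ (W : Subgroup X)) → (W : Subgroup X) ≤ C
    · have hCtop : C = ⊤ := by
        rw [← Subgroup.index_eq_one]
        by_contra hne
        obtain ⟨r, hr, hrd⟩ := Nat.exists_prime_and_dvd hne
        haveI : Fact r.Prime := ⟨hr⟩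
        obtain ⟨W, hWi⟩ := exists_inv_sylow σ Sg hA.pS hp r
        have h1 := hall r hr W hWi
        exact W.not_dvd_index (dvd_trans hrd (Subgroup.index_dvd_of_le h1))
      intro q hq x
      have hx : x ∈ C := by
        rw [hCtop]
        exact Subgroup.mem_top x
      rw [(hCmem x).mp hx q hq, mul_inv_cancel]
      exact Subgroup.one_mem _
    · push Not at hall
      obtain ⟨r₀, hr₀, W, hWi, hWC⟩ := hall
      haveI : Fact r₀.Prime := ⟨hr₀⟩
      have hTW : Tb ≤ (W : Subgroup X) := (hinv _ hWi).resolve_right hWC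
      have hcop : (W : Subgroup X).index.Coprime C.index := by
        apply Nat.coprime_of_dvd
        intro r hr hrW hrC
        haveI : Fact r.Prime := ⟨hr⟩
        have hne : r ≠ r₀ := by
          rintro rfl
          exact W.not_dvd_index hrW
        obtain ⟨Wr, hWri⟩ := exists_inv_sylow σ Sg hA.pS hp r
        rcases hinv _ hWri with h | h
        · apply hA.Tne
          have hd := IsPGroup.disjoint_of_ne r r₀ hne Tb Tb (Wr.2.to_le h) (W.2.to_le hTW)
          exact disjoint_self.mp hd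
        · exact Wr.not_dvd_index (dvd_trans hrC (Subgroup.index_dvd_of_le h))
      have hcomm : ∀ q ∈ Qg, ∀ x : X, x * (σ q x)⁻¹ ∈ (W : Subgroup X) := by
        intro q hq x
        obtain ⟨w, hw, c, hc, rfl⟩ :=
          Cfsg.Agent.Lib.Helper9.exists_mul_of_coprime_index (W : Subgroup X) C hcop x
        have h1 : σ q c = c := (hCmem c).mp hc q hq
        have h2 : w * c * (σ q (w * c))⁻¹ = w * (σ q w)⁻¹ := by
          rw [map_mul, h1]
          group
        rw [h2]
        exact Subgroup.mul_mem _ hw (Subgroup.inv_mem _ (hWi q (hA.QS hq) w hw))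
      obtain ⟨V, hV⟩ : ∃ V : Subgroup X,
          V = Subgroup.closure {y : X | ∃ q ∈ Qg, ∃ x : X, y = x * (σ q x)⁻¹} := ⟨_, rfl⟩
      have hVW : V ≤ (W : Subgroup X) := by
        rw [hV, Subgroup.closure_le]
        rintro y ⟨q, hq, x, rfl⟩
        exact hcomm q hq x
      have hVn : V.Normal := by
        constructor
        intro n hn g
        rw [hV] at hn ⊢
        induction hn using Subgroup.closure_induction with
        | mem y hy =>
          obtain ⟨q, hq, x, rfl⟩ := hy
          have e : g * (x * (σ q x)⁻¹) * g⁻¹ =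
              (g * x * (σ q (g * x))⁻¹) * (g * (σ q g)⁻¹)⁻¹ := by
            rw [map_mul]
            group
          rw [e]
          exact Subgroup.mul_mem _ (Subgroup.subset_closure ⟨q, hq, g * x, rfl⟩)
            (Subgroup.inv_mem _ (Subgroup.subset_closure ⟨q, hq, g, rfl⟩))
        | one =>
          simp
        | mul a b _ _ iha ihb =>
          have e : g * (a * b) * g⁻¹ = (g * a * g⁻¹) * (g * b * g⁻¹) := by group
          rw [e]
          exact Subgroup.mul_mem _ iha ihb
        | inv a _ iha =>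
          have e : g * a⁻¹ * g⁻¹ = (g * a * g⁻¹)⁻¹ := by group
          rw [e]
          exact Subgroup.inv_mem _ iha
      have hVp : IsPGroup r₀ ↥V := W.2.to_le hVW
      have hVnil : Group.IsNilpotent ↥V := hVp.isNilpotent
      have hVF : V ≤ Cfsg.fittingSubgroup X :=
        Cfsg.Agent.Lib.Helper22.le_fittingSubgroup_of_nilpotent hVn hVnil
      have hFZ : Cfsg.fittingSubgroup X ≤ Subgroup.center X := by
        have h1 := Cfsg.Agent.Lib.Helper22.commutator_layer_fittingSubgroup (G := X)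
        rw [Subgroup.commutator_comm, Subgroup.commutator_eq_bot_iff_le_centralizer, hlay] at h1
        intro y hy
        have h2 := h1 hy
        rw [Subgroup.mem_centralizer_iff] at h2
        rw [Subgroup.mem_center_iff]
        intro g
        exact h2 g (Subgroup.mem_top g)
      intro q hq x
      apply hFZ
      apply hVF
      rw [hV]
      exact Subgroup.subset_closure ⟨q, hq, x, rfl⟩
  -- a homomorphism from a perfect group to an abelian group is trivial
  have hperf : ⁅(⊤ : Subgroup X), (⊤ : Subgroup X)⁆ = ⊤ := by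
    have := Cfsg.Agent.Lib.Helper22.layer_perfect (G := X)
    rw [hlay] at this
    exact this
  intro q hq x
  obtain ⟨f, hf⟩ : ∃ f : X →* X, ∀ y, f y = y * (σ q y)⁻¹ := by
    refine ⟨MonoidHom.mk' (fun y => y * (σ q y)⁻¹) ?_, fun y => rfl⟩
    intro a b
    have hb := Subgroup.mem_center_iff.mp (hcent q hq b) (σ q a)⁻¹
    show a * b * (σ q (a * b))⁻¹ = a * (σ q a)⁻¹ * (b * (σ q b)⁻¹)
    rw [map_mul, mul_inv_rev]
    calc a * b * ((σ q b)⁻¹ * (σ q a)⁻¹) = a * ((b * (σ q b)⁻¹) * (σ q a)⁻¹) := by group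
      _ = a * ((σ q a)⁻¹ * (b * (σ q b)⁻¹)) := by rw [hb]
      _ = a * (σ q a)⁻¹ * (b * (σ q b)⁻¹) := by group
  have hker : (⊤ : Subgroup X) ≤ f.ker := by
    rw [← hperf, Subgroup.commutator_le]
    intro a _ b _
    rw [MonoidHom.mem_ker, map_commutatorElement, commutatorElement_eq_one_iff_commute]
    have hb : f b ∈ Subgroup.center X := by
      rw [hf]
      exact hcent q hq b
    exact Subgroup.mem_center_iff.mp hb (f a)
  have h1 : f x = 1 := MonoidHom.mem_ker.mp (hker (Subgroup.mem_top x))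
  rw [hf, mul_inv_eq_one] at h1
  exact h1.symm

end Cfsg.Agent.Lib.Helper11.Iso
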